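import Cfsg.Agent.Lib.Helper37.CentralExt
import Cfsg.Agent.Lib.Helper37.Ree.Pair

/-!
# Central extensions of the Borel subgroup of a small Ree group: levels 2 and 1
-/

set_option autoImplicit false

namespace Cfsg.Agent.Lib.Helper37.ReeM

open scoped commutatorElement
open Cfsg.Agent.Lib.Helper37.CentralExt

section general

variable {Γ G : Type*} [Group Γ] [Group G] (σ : Γ →* G) (hc : σ.ker ≤ Subgroup.center Γ)

include hc in
theorem cen_of_comm {u v : Γ} (h : σ u * σ v = σ v * σ u) : ⁅u, v⁆ ∈ Subgroup.center Γ := by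
  apply hc
  rw [MonoidHom.mem_ker, map_commutatorElement, commutatorElement_eq_one_iff_mul_comm]
  exact h

include hc in
theorem commL {u u' u'' v : Γ} (h : σ u'' = σ u * σ u') (h1 : u * ⁅u', v⁆ = ⁅u', v⁆ * u) :
    ⁅u'', v⁆ = ⁅u', v⁆ * ⁅u, v⁆ := by
  rw [comm_congr σ hc (u := u'') (u' := u * u') (v := v) (v' := v) (by rw [h, map_mul]) rfl,
    comm_mul_left, h1, mul_inv_cancel_right]

include hc in
theorem commR {u v v' v'' : Γ} (h : σ v'' = σ v * σ v') (h1 : v * ⁅u, v'⁆ = ⁅u, v'⁆ * v) :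
    ⁅u, v''⁆ = ⁅u, v⁆ * ⁅u, v'⁆ := by
  rw [comm_congr σ hc (u := u) (u' := u) (v := v'') (v' := v * v') rfl (by rw [h, map_mul]),
    comm_mul_right, h1, mul_inv_cancel_right]

include hc in
theorem commC {x u v u1 v1 : Γ} (hu : σ u1 = σ x * σ u * (σ x)⁻¹) (hv : σ v1 = σ x * σ v * (σ x)⁻¹) :
    ⁅u1, v1⁆ = x * ⁅u, v⁆ * x⁻¹ := by
  rw [conj_comm]
  exact comm_congr σ hc (by simp [hu]) (by simp [hv])

theorem conj_central {x c : Γ} (hcc : c ∈ Subgroup.center Γ) : x * c * x⁻¹ = c := by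
  rw [Subgroup.mem_center_iff.1 hcc x, mul_inv_cancel_right]

theorem comm_eq_of_mul_eq {g g' k : G} (h : g * g' = k * (g' * g)) : ⁅g, g'⁆ = k := by
  rw [commutatorElement_def, h]; group

end general

/-- the character on the first coordinate -/
def cA {K : Type*} [Field K] (m : ℕ) (c : Kˣ) : K := ((c : K) ^ 3 ^ (m + 1))⁻¹ * (c : K) ^ 2
/-- the character on the second coordinate -/
def cB {K : Type*} [Field K] (m : ℕ) (c : Kˣ) : K := (c : K) ^ 3 ^ (m + 1) * (c : K)⁻¹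

section chars

variable {K : Type*} [Field K] (m : ℕ)

theorem cA_mul (c c' : Kˣ) : cA m (c * c') = cA m c * cA m c' := by
  unfold cA
  rw [Units.val_mul, mul_pow, mul_pow, _root_.mul_inv]
  ring

theorem cB_mul (c c' : Kˣ) : cB m (c * c') = cB m c * cB m c' := by
  unfold cB
  rw [Units.val_mul, mul_pow, _root_.mul_inv]
  ring

theorem cA_neg_one : cA m (-1 : Kˣ) = (-1 : K) := by
  unfold cA
  rw [Units.val_neg, Units.val_one, (Odd.pow (by decide) : Odd (3 ^ (m + 1))).neg_one_pow]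
  norm_num

theorem cB_neg_one : cB m (-1 : Kˣ) = (1 : K) := by
  unfold cB
  rw [Units.val_neg, Units.val_one, (Odd.pow (by decide) : Odd (3 ^ (m + 1))).neg_one_pow]
  norm_num

theorem exists_cA [Fintype K] (hK : Fintype.card K = 3 ^ (2 * m + 1)) {μ : K} (hμ : μ ≠ 0) :
    ∃ c : Kˣ, cA m c = μ := by
  have h1 : μ ^ 3 ^ (m + 1) ≠ 0 := pow_ne_zero _ hμ
  refine ⟨Units.mk0 (μ ^ 2 * μ ^ 3 ^ (m + 1)) (mul_ne_zero (pow_ne_zero _ hμ) h1), ?_⟩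
  unfold cA
  rw [Units.val_mk0, mul_pow, pow_rr hK, ← pow_mul, mul_comm 2, pow_mul]
  field_simp

end chars

/-- the data of a central extension of (a group containing) the Borel subgroup -/
structure Ext (K G Γ : Type*) [Field K] [Fintype K] [Group G] [Group Γ] (m : ℕ) where
  hm : 1 ≤ m
  hK : Fintype.card K = 3 ^ (2 * m + 1)
  W : K → K → K → G
  h : Kˣ → G
  W_mul : ∀ t u v t' u' v', W t u v * W t' u' v' = W (t + t') (u + u' - t * t' ^ 3 ^ (m + 1))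
      (v + v' - t' * u + t * t' * t' ^ 3 ^ (m + 1) - t ^ 2 * t' ^ 3 ^ (m + 1))
  conj_W : ∀ (c : Kˣ) t u v, h c * W t u v * (h c)⁻¹ = W (cA m c * t) (cB m c * u) (c * v)
  σ : Γ →* G
  hc : σ.ker ≤ Subgroup.center Γ
  w : K → K → K → Γ
  e : Kˣ → Γ
  hw : ∀ t u v, σ (w t u v) = W t u v
  he : ∀ c, σ (e c) = h c

namespace Ext

variable {K G Γ : Type*} [Field K] [Fintype K] [Group G] [Group Γ] {m : ℕ} (E : Ext K G Γ m)

omit [Fintype K] in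
theorem zpow_r : (0 : K) ^ 3 ^ (m + 1) = 0 := zero_pow (by positivity)

theorem W_t0 (t u v : K) : E.W t 0 0 * E.W 0 u v = E.W t u v := by
  rw [E.W_mul, zpow_r]; congr 1 <;> ring

theorem W_00 (u v u' v' : K) : E.W 0 u v * E.W 0 u' v' = E.W 0 (u + u') (v + v') := by
  rw [E.W_mul, zpow_r]; congr 1 <;> ring

theorem W_c2 (t u v y : K) : E.W t u v * E.W 0 0 y = E.W 0 0 y * E.W t u v := by
  rw [E.W_mul, E.W_mul, zpow_r]; congr 1 <;> ring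

theorem W_c1 (t u v u' v' : K) :
    E.W t u v * E.W 0 u' v' = E.W 0 0 (t * u') * (E.W 0 u' v' * E.W t u v) := by
  rw [E.W_mul, E.W_mul, E.W_mul, zpow_r]; congr 1 <;> ring

theorem W_c0 (t u v t' u' v' : K) : ∃ x y,
    E.W t u v * E.W t' u' v' = E.W 0 x y * (E.W t' u' v' * E.W t u v) := by
  refine ⟨(u + u' - t * t' ^ 3 ^ (m + 1)) - (u' + u - t' * t ^ 3 ^ (m + 1)),
    (v + v' - t' * u + t * t' * t' ^ 3 ^ (m + 1) - t ^ 2 * t' ^ 3 ^ (m + 1)) -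
    (v' + v - t * u' + t' * t * t ^ 3 ^ (m + 1) - t' ^ 2 * t ^ 3 ^ (m + 1)) +
    (t' + t) * ((u + u' - t * t' ^ 3 ^ (m + 1)) - (u' + u - t' * t ^ 3 ^ (m + 1))), ?_⟩
  rw [E.W_mul, E.W_mul, E.W_mul]; congr 1 <;> ring

theorem conj_W0 (c : Kˣ) (u v : K) : E.h c * E.W 0 u v * (E.h c)⁻¹ = E.W 0 (cB m c * u) (c * v) := by
  rw [E.conj_W, mul_zero]

theorem conj_W00 (c : Kˣ) (v : K) : E.h c * E.W 0 0 v * (E.h c)⁻¹ = E.W 0 0 (c * v) := by
  rw [E.conj_W, mul_zero, mul_zero]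

theorem conj_Wt (c : Kˣ) (t : K) : E.h c * E.W t 0 0 * (E.h c)⁻¹ = E.W (cA m c * t) 0 0 := by
  rw [E.conj_W, mul_zero, mul_zero]

/-! ### level 2 -/

theorem cen2 (t u v y : K) : ⁅E.w t u v, E.w 0 0 y⁆ ∈ Subgroup.center Γ :=
  cen_of_comm E.σ E.hc (by rw [E.hw, E.hw]; exact E.W_c2 t u v y)

theorem L2 {t u v t' u' v' t'' u'' v'' : K} (y : K) (h : E.W t'' u'' v'' = E.W t u v * E.W t' u' v') :
    ⁅E.w t'' u'' v'', E.w 0 0 y⁆ = ⁅E.w t u v, E.w 0 0 y⁆ * ⁅E.w t' u' v', E.w 0 0 y⁆ := by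
  rw [commL E.σ E.hc (u := E.w t u v) (u' := E.w t' u' v') (by rw [E.hw, E.hw, E.hw, h])
    (Subgroup.mem_center_iff.1 (E.cen2 t' u' v' y) _)]
  exact (Subgroup.mem_center_iff.1 (E.cen2 t' u' v' y) _).symm

theorem R2 (t u v y y' : K) :
    ⁅E.w t u v, E.w 0 0 (y + y')⁆ = ⁅E.w t u v, E.w 0 0 y⁆ * ⁅E.w t u v, E.w 0 0 y'⁆ :=
  commR E.σ E.hc (by rw [E.hw, E.hw, E.hw, E.W_00, add_zero])
    (Subgroup.mem_center_iff.1 (E.cen2 t u v y') _)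

theorem C2 (c : Kˣ) (t u v y : K) :
    ⁅E.w (cA m c * t) (cB m c * u) (c * v), E.w 0 0 (c * y)⁆ = ⁅E.w t u v, E.w 0 0 y⁆ := by
  rw [commC E.σ E.hc (x := E.e c) (u := E.w t u v) (v := E.w 0 0 y)
    (by rw [E.hw, E.hw, E.he, E.conj_W]) (by rw [E.hw, E.hw, E.he, E.conj_W00]),
    conj_central (E.cen2 t u v y)]

theorem s22 (x y : K) : ⁅E.w 0 0 x, E.w 0 0 y⁆ = 1 := by
  refine pair_A E.hm E.hK (fun x y => ⁅E.w 0 0 x, E.w 0 0 y⁆) ?_ ?_ ?_ x y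
  · intro x x' y
    exact E.L2 y (by rw [E.W_00, add_zero])
  · intro x y y'
    exact E.R2 0 0 x y y'
  · intro μ hμ x y
    have := E.C2 (Units.mk0 μ hμ) 0 0 x y
    simpa only [mul_zero, Units.val_mk0] using this

theorem s12 (u y : K) : ⁅E.w 0 u 0, E.w 0 0 y⁆ = 1 := by
  have := charP_three E.hK
  refine pair_trivial_neg_right (fun u y => ⁅E.w 0 u 0, E.w 0 0 y⁆) ?_ ?_ u y
  · intro x y y'
    exact E.R2 0 x 0 y y'
  · intro u y
    have := E.C2 (-1) 0 u 0 y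
    simpa only [mul_zero, cB_neg_one, one_mul, Units.val_neg, Units.val_one, neg_mul] using this

theorem ind2 (t u v y : K) : ⁅E.w t u v, E.w 0 0 y⁆ = ⁅E.w t 0 0, E.w 0 0 y⁆ := by
  rw [E.L2 y (E.W_t0 t u v).symm, E.L2 (t := 0) (u := u) (v := 0) (t' := 0) (u' := 0) (v' := v)
    (t'' := 0) (u'' := u) (v'' := v) y
    (by rw [E.W_00, add_zero, zero_add]), E.s12, E.s22, mul_one, mul_one]

theorem s02 (t y : K) : ⁅E.w t 0 0, E.w 0 0 y⁆ = 1 := by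
  refine pair_TV E.hm E.hK (fun t y => ⁅E.w t 0 0, E.w 0 0 y⁆) ?_ ?_ ?_ t y
  · intro t t' y
    show ⁅E.w (t + t') 0 0, E.w 0 0 y⁆ = _
    rw [← E.ind2 (t + t') _ _ y]
    exact E.L2 y (E.W_mul t 0 0 t' 0 0).symm
  · intro x y y'
    exact E.R2 x 0 0 y y'
  · intro c hc t y
    have := E.C2 (Units.mk0 c hc) t 0 0 y
    simpa only [mul_zero, Units.val_mk0, cA] using this

theorem comm2 {x y : Γ} {t u v y' : K} (hx : E.σ x = E.W t u v) (hy : E.σ y = E.W 0 0 y') :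
    x * y = y * x := by
  rw [← commutatorElement_eq_one_iff_mul_comm,
    comm_congr E.σ E.hc (u' := E.w t u v) (v' := E.w 0 0 y') (by rw [hx, E.hw]) (by rw [hy, E.hw]),
    E.ind2, E.s02]

/-! ### level 1 -/

theorem cen1 (u v u' v' : K) : ⁅E.w 0 u v, E.w 0 u' v'⁆ ∈ Subgroup.center Γ :=
  cen_of_comm E.σ E.hc (by rw [E.hw, E.hw, E.W_00, E.W_00, add_comm u, add_comm v])

theorem s11 (u u' : K) : ⁅E.w 0 u 0, E.w 0 u' 0⁆ = 1 := by
  refine pair_UU E.hm E.hK (fun u u' => ⁅E.w 0 u 0, E.w 0 u' 0⁆) ?_ ?_ ?_ u u'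
  · intro x x' y
    show ⁅E.w 0 (x + x') 0, E.w 0 y 0⁆ = _
    rw [commL E.σ E.hc (u := E.w 0 x 0) (u' := E.w 0 x' 0) (by rw [E.hw, E.hw, E.hw, E.W_00, add_zero])
      (Subgroup.mem_center_iff.1 (E.cen1 x' 0 y 0) _)]
    exact (Subgroup.mem_center_iff.1 (E.cen1 x' 0 y 0) _).symm
  · intro x y y'
    exact commR E.σ E.hc (by rw [E.hw, E.hw, E.hw, E.W_00, add_zero])
      (Subgroup.mem_center_iff.1 (E.cen1 x 0 y' 0) _)
  · intro c hc u u'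
    have := commC E.σ E.hc (x := E.e (Units.mk0 c hc)) (u := E.w 0 u 0) (v := E.w 0 u' 0)
      (u1 := E.w 0 (cB m (Units.mk0 c hc) * u) 0) (v1 := E.w 0 (cB m (Units.mk0 c hc) * u') 0)
      (by rw [E.hw, E.hw, E.he, E.conj_W0, mul_zero]) (by rw [E.hw, E.hw, E.he, E.conj_W0, mul_zero])
    rw [conj_central (E.cen1 u 0 u' 0)] at this
    simpa only [cB, Units.val_mk0] using this

theorem comm1 {x y : Γ} {u v u' v' : K} (hx : E.σ x = E.W 0 u v) (hy : E.σ y = E.W 0 u' v') :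
    x * y = y * x := by
  rw [← commutatorElement_eq_one_iff_mul_comm,
    comm_congr E.σ E.hc (u' := E.w 0 u 0 * E.w 0 0 v) (v' := E.w 0 u' 0 * E.w 0 0 v')
      (by rw [hx, map_mul, E.hw, E.hw, E.W_00, add_zero, zero_add])
      (by rw [hy, map_mul, E.hw, E.hw, E.W_00, add_zero, zero_add]),
    commutatorElement_eq_one_iff_mul_comm]
  have h1 : E.w 0 u 0 * E.w 0 u' 0 = E.w 0 u' 0 * E.w 0 u 0 :=
    commutatorElement_eq_one_iff_mul_comm.1 (E.s11 u u')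
  have h2 : E.w 0 u 0 * E.w 0 0 v' = E.w 0 0 v' * E.w 0 u 0 := E.comm2 (E.hw _ _ _) (E.hw _ _ _)
  have h3 : E.w 0 u' 0 * E.w 0 0 v = E.w 0 0 v * E.w 0 u' 0 := E.comm2 (E.hw _ _ _) (E.hw _ _ _)
  have h4 : E.w 0 0 v * E.w 0 0 v' = E.w 0 0 v' * E.w 0 0 v := E.comm2 (E.hw _ _ _) (E.hw _ _ _)
  calc E.w 0 u 0 * E.w 0 0 v * (E.w 0 u' 0 * E.w 0 0 v')
      = E.w 0 u 0 * (E.w 0 0 v * E.w 0 u' 0) * E.w 0 0 v' := by group
    _ = E.w 0 u 0 * (E.w 0 u' 0 * E.w 0 0 v) * E.w 0 0 v' := by rw [h3]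
    _ = (E.w 0 u 0 * E.w 0 u' 0) * (E.w 0 0 v * E.w 0 0 v') := by group
    _ = (E.w 0 u' 0 * E.w 0 u 0) * (E.w 0 0 v' * E.w 0 0 v) := by rw [h1, h4]
    _ = E.w 0 u' 0 * (E.w 0 u 0 * E.w 0 0 v') * E.w 0 0 v := by group
    _ = E.w 0 u' 0 * (E.w 0 0 v' * E.w 0 u 0) * E.w 0 0 v := by rw [h2]
    _ = E.w 0 u' 0 * E.w 0 0 v' * (E.w 0 u 0 * E.w 0 0 v) := by group

end Ext

end Cfsg.Agent.Lib.Helper37.ReeM
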