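import Cfsg.Agent.Lib.Helper37.Ree.Three

/-!
# Central extensions: an elementary abelian group of order 8 with an automorphism of order 7
lifts to an abelian group
-/

set_option autoImplicit false

namespace Cfsg.Agent.Lib.Helper37.ReeM

open scoped commutatorElement
open Cfsg.Agent.Lib.Helper37.CentralExt

/-- the arithmetic of the Fano plane -/
theorem fano_solve {M : Type*} [Group M] (f : ℕ → M) (k : ℕ) (hk : k < 7) (h0 : f 0 = 1)
    (hper : ∀ d, f (d + 7) = f d) (hsq : ∀ d, f d * f d = 1)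
    (h6 : f 6 = f 1) (h5 : f 5 = f 2) (h4 : f 4 = f 3)
    (hE : ∀ i, f i * f (i + 1) = f (i + k)) : f 1 = 1 ∧ f 2 = 1 ∧ f 3 = 1 := by
  have h7 : f 7 = 1 := by rw [← h0]; exact hper 0
  have h8 : f 8 = f 1 := hper 1
  have h9 : f 9 = f 2 := hper 2
  have E0 := hE 0
  have E1 := hE 1
  have E2 := hE 2
  have E3 := hE 3
  have s3 := hsq 3
  clear hE hper hsq
  interval_cases k <;>
    simp only [zero_add, Nat.reduceAdd, add_zero, h0, h4, h5, h6, h7, h8, h9, one_mul] at E0 E1 E2 E3 <;>
    clear h0 h4 h5 h6 h7 h8 h9 <;>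
    generalize f 1 = a at * <;> generalize f 2 = b at * <;> generalize f 3 = c at *
  · exact ⟨E0, mul_eq_left.1 E1, mul_eq_left.1 E2⟩
  · exact ⟨mul_eq_right.1 E1, mul_eq_right.1 E2, mul_eq_left.1 E3⟩
  · have hb := mul_eq_right.1 E2
    subst hb; subst E0
    exact ⟨rfl, rfl, by simpa using E1.symm⟩
  · have hc := mul_eq_left.1 E2
    subst hc; subst E0
    exact ⟨rfl, by simpa using E1, rfl⟩
  · have ha := mul_eq_right.1 E1
    subst ha; subst E0
    exact ⟨rfl, by simpa using E2, rfl⟩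
  · have hb := mul_eq_left.1 E1
    subst hb; subst E0
    exact ⟨rfl, rfl, by simpa using E2⟩
  · rw [s3] at E3
    subst E3
    have ha : a = 1 := by simpa using E1
    subst ha
    exact ⟨rfl, rfl, by simpa using E2⟩

theorem two_part {G Γ : Type*} [Group G] [Group Γ] (σ : Γ →* G) (hs : Function.Surjective σ)
    (hc : σ.ker ≤ Subgroup.center Γ) (S : Subgroup G) (h8 : Nat.card S = 8) (h2 : ∀ x ∈ S, x * x = 1)
    (n : G) (hn7 : n ^ 7 = 1) (hnS : ∀ x ∈ S, n * x * n⁻¹ ∈ S) (s₀ : G) (hs₀ : s₀ ∈ S)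
    (hns : n * s₀ * n⁻¹ ≠ s₀) : ∀ u v : Γ, σ u ∈ S → σ v ∈ S → u * v = v * u := by
  have hfin : Finite S := Nat.finite_of_card_ne_zero (by rw [h8]; norm_num)
  -- `S` is abelian
  have hinv : ∀ x ∈ S, x⁻¹ = x := fun x hx => inv_eq_of_mul_eq_one_left (h2 x hx)
  have hab : ∀ x ∈ S, ∀ y ∈ S, x * y = y * x := by
    intro x hx y hy
    have h := hinv _ (mul_mem hx hy)
    rw [_root_.mul_inv_rev, hinv x hx, hinv y hy] at h
    exact h.symm
  let c : ℕ → G := fun i => n ^ i * s₀ * (n ^ i)⁻¹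
  have c_add : ∀ i j, c (i + j) = n ^ i * c j * (n ^ i)⁻¹ := by
    intro i j
    simp only [c, pow_add]
    group
  have c_succ : ∀ j, c (j + 1) = n * c j * n⁻¹ := by
    intro j
    rw [add_comm, c_add, pow_one]
  have c_mem : ∀ i, c i ∈ S := by
    intro i
    induction i with
    | zero => simpa [c] using hs₀
    | succ i ih => rw [c_succ]; exact hnS _ ih
  have c_per : ∀ i, c (i + 7) = c i := by
    intro i
    rw [add_comm, c_add, hn7]; simp
  have hs1 : s₀ ≠ 1 := by
    rintro rfl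
    exact hns (by simp)
  have c_ne : ∀ i, c i ≠ 1 := by
    intro i h
    exact hs1 (conj_eq_one_iff.1 h)
  have c_inj : Set.InjOn c (↑(Finset.range 7) : Set ℕ) := by
    have key : ∀ i j, i < j → j < 7 → c i ≠ c j := by
      intro i j hij hj h
      obtain ⟨d, rfl⟩ := Nat.exists_eq_add_of_lt hij
      have hd : d + 1 < 7 := by omega
      rw [show i + d + 1 = i + (d + 1) by ring, c_add i (d + 1)] at h
      have h0 : c i = n ^ i * c 0 * (n ^ i)⁻¹ := by rw [← c_add, add_zero]
      rw [h0] at h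
      have h1 : c 0 = c (d + 1) := by
        have := mul_left_cancel (mul_right_cancel h)
        exact this
      have h3 : Commute (n ^ (d + 1)) s₀ := by
        have : s₀ = n ^ (d + 1) * s₀ * (n ^ (d + 1))⁻¹ := by simpa [c] using h1
        show n ^ (d + 1) * s₀ = s₀ * n ^ (d + 1)
        exact (eq_mul_inv_iff_mul_eq.1 this).symm
      obtain ⟨e, q, he⟩ : ∃ e q, (d + 1) * e = 7 * q + 1 := by
        have : d + 1 = 1 ∨ d + 1 = 2 ∨ d + 1 = 3 ∨ d + 1 = 4 ∨ d + 1 = 5 ∨ d + 1 = 6 := by omega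
        rcases this with h | h | h | h | h | h <;> rw [h]
        · exact ⟨1, 0, by norm_num⟩
        · exact ⟨4, 1, by norm_num⟩
        · exact ⟨5, 2, by norm_num⟩
        · exact ⟨2, 1, by norm_num⟩
        · exact ⟨3, 2, by norm_num⟩
        · exact ⟨6, 5, by norm_num⟩
      have h4 : Commute n s₀ := by
        have := h3.pow_left e
        rwa [← pow_mul, he, pow_add, pow_mul, hn7, one_pow, one_mul, pow_one] at this
      apply hns
      rw [h4.eq, mul_inv_cancel_right]
    intro i hi j hj h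
    rw [Finset.coe_range, Set.mem_Iio] at hi hj
    rcases lt_trichotomy i j with h1 | h1 | h1
    · exact absurd h (key i j h1 hj)
    · exact h1
    · exact absurd h.symm (key j i h1 hi)
  have hcover : c '' (↑(Finset.range 7) : Set ℕ) = (S : Set G) \ {1} := by
    apply Set.eq_of_subset_of_ncard_le
    · rintro _ ⟨i, -, rfl⟩
      exact ⟨c_mem i, c_ne i⟩
    · rw [Set.InjOn.ncard_image c_inj, Set.ncard_coe_finset, Finset.card_range,
        Set.ncard_sdiff_singleton_of_mem (S.one_mem), ← _root_.Nat.card_coe_set_eq]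
      have : Nat.card (S : Set G) = 8 := h8
      rw [this]
    · exact (Set.toFinite (S : Set G)).subset Set.sdiff_subset
  have hex : ∀ x ∈ S, x ≠ 1 → ∃ i, x = c i := by
    intro x hx hx1
    have : x ∈ c '' (↑(Finset.range 7) : Set ℕ) := by rw [hcover]; exact ⟨hx, hx1⟩
    obtain ⟨i, -, rfl⟩ := this
    exact ⟨i, rfl⟩
  -- lifts
  let s := Function.surjInv hs
  have hs' : ∀ g, σ (s g) = g := Function.surjInv_eq hs
  let l : ℕ → Γ := fun i => s (c i)
  have hl : ∀ i, σ (l i) = c i := fun i => hs' _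
  have hcen : ∀ i j, ⁅l i, l j⁆ ∈ Subgroup.center Γ := fun i j =>
    cen_of_comm σ hc (by rw [hl, hl]; exact hab _ (c_mem i) _ (c_mem j))
  have hshift1 : ∀ i j, ⁅l (i + 1), l (j + 1)⁆ = ⁅l i, l j⁆ := by
    intro i j
    rw [commC σ hc (x := s n) (u := l i) (v := l j) (by rw [hl, hl, hs', c_succ])
      (by rw [hl, hl, hs', c_succ]), conj_central (hcen i j)]
  have hshift : ∀ d i j, ⁅l (i + d), l (j + d)⁆ = ⁅l i, l j⁆ := by
    intro d
    induction d with
    | zero => intro i j; rfl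
    | succ d ih => intro i j; rw [← add_assoc, ← add_assoc, hshift1, ih]
  let f : ℕ → Γ := fun d => ⁅l 0, l d⁆
  have hper : ∀ d, f (d + 7) = f d := fun d =>
    comm_congr σ hc rfl (by rw [hl, hl, c_per])
  have hmulR : ∀ i j k, c k = c i * c j → f k = f i * f j := fun i j k h =>
    commR σ hc (by rw [hl, hl, hl, h]) (Subgroup.mem_center_iff.1 (hcen 0 j) _)
  have hsq : ∀ d, f d * f d = 1 := by
    intro d
    have : ⁅l 0, (1 : Γ)⁆ = f d * f d :=
      commR σ hc (by rw [hl, map_one, h2 _ (c_mem d)]) (Subgroup.mem_center_iff.1 (hcen 0 d) _)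
    rw [← this, commutatorElement_one_right]
  have hrefl : ∀ d e, d + e = 7 → f e = f d := by
    intro d e hde
    have h1 : f e = ⁅l d, l 7⁆ := by
      have := hshift d 0 e
      rw [zero_add, add_comm e d, hde] at this
      exact this.symm
    have h2' : ⁅l d, l 7⁆ = ⁅l d, l 0⁆ := comm_congr σ hc rfl (by rw [hl, hl]; exact c_per 0)
    rw [h1, h2', ← commutatorElement_inv]
    exact inv_eq_of_mul_eq_one_left (hsq d)
  obtain ⟨k, hk7, hk⟩ : ∃ k, k < 7 ∧ c 0 * c 1 = c k := by
    have h1 : c 0 * c 1 ≠ 1 := by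
      intro h
      have h01 : c 0 = c 1 := by
        rw [← hinv _ (c_mem 1)]
        exact eq_inv_of_mul_eq_one_left h
      have := c_inj (by simp) (by simp) h01
      omega
    have : c 0 * c 1 ∈ c '' (↑(Finset.range 7) : Set ℕ) := by
      rw [hcover]; exact ⟨mul_mem (c_mem 0) (c_mem 1), h1⟩
    obtain ⟨k, hk, e⟩ := this
    exact ⟨k, by simpa using hk, e.symm⟩
  have hE : ∀ i, f i * f (i + 1) = f (i + k) := by
    intro i
    refine (hmulR i (i + 1) (i + k) ?_).symm
    rw [c_add i k, ← hk, c_add i 1]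
    have : c i = n ^ i * c 0 * (n ^ i)⁻¹ := by rw [← c_add, add_zero]
    rw [this]
    group
  have hf0 : f 0 = 1 := commutatorElement_self _
  obtain ⟨f1, f2, f3⟩ := fano_solve f k hk7 hf0 hper hsq (hrefl 1 6 rfl) (hrefl 2 5 rfl) (hrefl 3 4 rfl) hE
  have hfall : ∀ d, d < 7 → f d = 1 := by
    intro d hd
    interval_cases d
    · exact hf0
    · exact f1
    · exact f2
    · exact f3
    · rw [hrefl 3 4 rfl, f3]
    · rw [hrefl 2 5 rfl, f2]
    · rw [hrefl 1 6 rfl, f1]
  have hfall' : ∀ d, f d = 1 := by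
    intro d
    induction d using Nat.strong_induction_on with
    | _ d ih =>
      by_cases hd : d < 7
      · exact hfall d hd
      · obtain ⟨e, rfl⟩ := Nat.exists_eq_add_of_le (not_lt.1 hd)
        rw [add_comm, hper]
        exact ih e (by omega)
  have hb : ∀ i j, ⁅l i, l j⁆ = 1 := by
    have key : ∀ i j, i ≤ j → ⁅l i, l j⁆ = 1 := by
      intro i j hij
      obtain ⟨d, rfl⟩ := Nat.exists_eq_add_of_le hij
      have := hshift i 0 d
      rw [zero_add, add_comm d i] at this
      rw [this]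
      exact hfall' d
    intro i j
    rcases le_total i j with h | h
    · exact key i j h
    · rw [← commutatorElement_inv, key j i h, inv_one]
  intro u v hu hv
  by_cases hu1 : σ u = 1
  · exact (Subgroup.mem_center_iff.1 (hc hu1) v).symm
  by_cases hv1 : σ v = 1
  · exact Subgroup.mem_center_iff.1 (hc hv1) u
  obtain ⟨i, hi⟩ := hex _ hu hu1
  obtain ⟨j, hj⟩ := hex _ hv hv1
  rw [← commutatorElement_eq_one_iff_mul_comm,
    comm_congr σ hc (u' := l i) (v' := l j) (by rw [hi, hl]) (by rw [hj, hl])]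
  exact hb i j

end Cfsg.Agent.Lib.Helper37.ReeM
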